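import Cfsg.Agent.H308.CA.TGrp
import Cfsg.Agent.H689.CA.BorSt

/-!
# S3852, type A block, [CA16] (BORK) (helper689)

A Carter subgroup `K` of `Γ` normalising a Sylow `p`-subgroup of `SU` (`p` the characteristic) contains an involution of
`SU` modulo scalars.
-/

set_option autoImplicit false

namespace Cfsg.Agent.H689.CA

open Cfsg.Agent.H308.CA Subgroup
open Cfsg.Agent.Solvable.Carter
open scoped Pointwise

universe u

section

variable {E : Type} [CommRing E] [StarRing E]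

theorem eq_one_of_pow' (h : Gd E) {p : ℕ} (hp : p.Prime) [CharP E p] {c : E} : ∀ {n : ℕ}, c ^ p ^ n = 1 → c = 1 := by
  intro n
  induction n with
  | zero => intro hc; rwa [pow_zero, pow_one] at hc
  | succ n ih =>
    intro hc
    rw [pow_succ, pow_mul] at hc
    exact ih (eq_one_of_pow h hp hc)

/-- scalar `p`-elements are trivial -/
theorem scal_eq_one (h : Gd E) {ι : Type} [Fintype ι] [DecidableEq ι] {p : ℕ} (hp : p.Prime) [CharP E p]
    {z : SU ι E} (hz : Sc (mt z) 1) {n : ℕ} (hn : z ^ p ^ n = 1) : z = 1 := by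
  obtain ⟨c, -, hc⟩ := hz
  apply mt_injective
  rcases isEmpty_or_nonempty ι with hι | hι
  · exact Matrix.ext fun i => hι.elim i
  have h1 := congrArg H308.CA.mt hn
  rw [map_pow, hc, map_one, smul_pow, one_pow] at h1
  obtain ⟨i⟩ := hι
  have h2 := congrFun (congrFun h1 i) i
  rw [Matrix.smul_apply, Matrix.one_apply_eq, smul_eq_mul, mul_one] at h2
  rw [hc, eq_one_of_pow' h hp h2, one_smul, map_one]

end

variable {Γ : Type u} [Group Γ] {ι : Type} [Fintype ι] [DecidableEq ι] {E : Type} [CommRing E] [StarRing E]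

/-- the Sylow `p`-subgroup of `SU` over `P` -/
theorem exists_lift (h : Gd E) (T : TA Γ ι E) (hD : DetSt E) {p : ℕ} [hp : Fact p.Prime] [CharP E p]
    {P : Subgroup Γ} (hPp : IsPGroup p P) (hi : ¬ p ∣ P.relIndex T.j.range) :
    ∃ S : Subgroup (SU ι E), IsPGroup p S ∧ ¬ p ∣ S.index ∧ ∀ g ∈ normalizer (P : Set Γ), ∀ s ∈ S,
      T.act hD g s ∈ S := by
  have hfE := h.finite
  set P0 : Subgroup (SU ι E) := P.comap T.j with hP0
  obtain ⟨Q⟩ : Nonempty (Sylow p P0) := inferInstance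
  -- the kernel
  have hker : ∀ z : SU ι E, T.j z = 1 → Sc (mt z) 1 := fun z hz => T.j_mem_Z.1 (by rw [hz]; exact one_mem _)
  let N : Subgroup P0 := (T.j.comp P0.subtype).ker
  have hN : IsPGroup p (P0 ⧸ N) := by
    intro x
    obtain ⟨x, rfl⟩ := QuotientGroup.mk_surjective x
    obtain ⟨m, hm⟩ := hPp ⟨T.j x, x.2⟩
    refine ⟨m, ?_⟩
    rw [← QuotientGroup.mk_pow, QuotientGroup.eq_one_iff]
    have h3 := congrArg Subtype.val hm
    change T.j ((x ^ p ^ m : P0) : SU ι E) = 1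
    rw [Subgroup.coe_pow, map_pow]
    exact h3
  have hsup : (Q : Subgroup P0) ⊔ N = ⊤ := by
    have h4 : (Q : Subgroup P0).index.Coprime p := (Nat.Prime.coprime_iff_not_dvd hp.out).2 Q.not_dvd_index |>.symm
    have h5 : ((Q : Subgroup P0) ⊔ N).index ∣ (Q : Subgroup P0).index := index_dvd_of_le le_sup_left
    have h6 : ((Q : Subgroup P0) ⊔ N).index ∣ N.index := index_dvd_of_le le_sup_right
    obtain ⟨m, hm⟩ := IsPGroup.iff_card.1 hN
    rw [← index_eq_card] at hm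
    rw [hm] at h6
    have h7 : Nat.gcd (Q : Subgroup P0).index (p ^ m) = 1 := Nat.Coprime.pow_right m h4
    have h8 := Nat.dvd_gcd h5 h6
    rw [h7, Nat.dvd_one] at h8
    exact index_eq_one.1 h8
  -- all `p`-elements are in `Q`
  have hall : ∀ x : P0, (∃ n : ℕ, x ^ p ^ n = 1) → x ∈ (Q : Subgroup P0) := by
    rintro x ⟨n, hn⟩
    have h1 : x ∈ ((Q : Subgroup P0) ⊔ N : Subgroup P0) := by rw [hsup]; exact mem_top x
    rw [← SetLike.mem_coe, Subgroup.mul_normal] at h1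
    obtain ⟨q, hq, z, hz, rfl⟩ := h1
    have hz' : Sc (mt (z : SU ι E)) 1 := hker _ hz
    have hcomm : Commute q z := by
      refine Subtype.ext ?_
      exact (scal_comm (v := (q : SU ι E)) hz').symm
    obtain ⟨m, hm⟩ := Q.isPGroup' ⟨q, hq⟩
    have hm' : q ^ p ^ m = 1 := congrArg Subtype.val hm
    have h2 : z ^ p ^ (n + m) = 1 := by
      have h3 : (q * z) ^ p ^ (n + m) = 1 := by rw [pow_add, pow_mul, hn, one_pow]
      have h4 : q ^ p ^ (n + m) = 1 := by rw [add_comm, pow_add, pow_mul, hm', one_pow]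
      rw [hcomm.mul_pow, h4, one_mul] at h3
      exact h3
    have h3 : (z : SU ι E) = 1 := scal_eq_one h hp.out hz' (n := n + m) (by
      rw [← Subgroup.coe_pow, h2, Subgroup.coe_one])
    have h4 : z = 1 := Subtype.ext h3
    change q * z ∈ (Q : Subgroup P0)
    rw [h4, mul_one]
    exact hq
  refine ⟨(Q : Subgroup P0).map P0.subtype, Q.2.map _, ?_, ?_⟩
  · have hle : (Q : Subgroup P0).map P0.subtype ≤ P0 := map_subtype_le _
    rw [← relIndex_mul_index hle]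
    refine Nat.Prime.not_dvd_mul hp.out ?_ ?_
    · rw [relIndex, subgroupOf, comap_map_eq_self_of_injective P0.subtype_injective]
      exact Q.not_dvd_index
    · rw [hP0, index_comap]
      exact hi
  · rintro g hg _ ⟨s, hs, rfl⟩
    have hmem : T.act hD g s ∈ P0 := by
      change T.j (T.act hD g s) ∈ P
      rw [← T.conj_eq hD]
      exact (mem_normalizer_iff.1 hg _).1 s.2
    obtain ⟨m, hm⟩ := Q.isPGroup' ⟨s, hs⟩
    have hm' : s ^ p ^ m = 1 := congrArg Subtype.val hm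
    refine ⟨⟨T.act hD g s, hmem⟩, hall _ ⟨m, ?_⟩, rfl⟩
    apply Subtype.ext
    apply mt_injective
    change mt ((T.act hD g s) ^ p ^ m) = mt 1
    rw [map_pow, T.mt_act, ← map_pow, ← map_pow, ← Subgroup.coe_pow, hm', Subgroup.coe_one, map_one, map_one]

/-- **[CA16] (BORK)** -/
theorem exists_two_of_sylow_p [Finite Γ] (h : Gd E) (T : TA Γ ι E) (hD : DetSt E) (hBor : BorSt E) (hS : Sml Γ)
    {K : Subgroup Γ} (hK : IsCarter K) {p : ℕ} [Fact p.Prime] (hp2 : p ≠ 2) [CharP E p] (hn : 3 ≤ Fintype.card ι)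
    {P : Subgroup Γ} (_hP : P ≤ T.j.range) (hp : IsPGroup p P) (hi : ¬ p ∣ P.relIndex T.j.range)
    (hKP : K ≤ normalizer (P : Set Γ)) : ∃ k ∈ K, k ∈ T.j.range ∧ k ∉ T.Z ∧ k ^ 2 ∈ T.Z := by
  obtain ⟨S, hSp, hSi, hSact⟩ := exists_lift h T hD hp hi
  obtain ⟨Q, Y, hQY, hQp, hidx, hsc, hθ⟩ := hBor p Fact.out hp2 inferInstance ι hn S hSp hSi
  have hact : ∀ k ∈ K, (∀ q ∈ Q, T.act hD k q ∈ Q) ∧ ∀ y ∈ Y, T.act hD k y ∈ Y := by
    intro k hk
    obtain ⟨h1, h2⟩ := hθ (T.ρ k) (T.st k) (fun t ht => ⟨T.act hD k t, hSact k (hKP hk) t ht, rfl⟩)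
    refine ⟨fun q hq => ?_, fun y hy => ?_⟩
    · obtain ⟨q', hq', e⟩ := h1 q hq
      have : T.act hD k q = q' := mt_injective (by rw [T.mt_act, e])
      rw [this]; exact hq'
    · obtain ⟨q', hq', e⟩ := h2 y hy
      have : T.act hD k y = q' := mt_injective (by rw [T.mt_act, e])
      rw [this]; exact hq'
  -- the quotient of order two
  have hmul : ∀ a ∈ Y, ∀ b ∈ Y, (a * b ∈ Q ↔ (a ∈ Q ↔ b ∈ Q)) := by
    intro a ha b hb
    have h1 : (Q.subgroupOf Y).index = 2 := hidx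
    have h2 := Subgroup.mul_mem_iff_of_index_two h1 (a := ⟨a, ha⟩) (b := ⟨b, hb⟩)
    exact h2
  obtain ⟨s, hsY, hsQ⟩ : ∃ s ∈ Y, s ∉ Q := by
    by_contra hcon
    push Not at hcon
    rw [relIndex_eq_one.2 hcon] at hidx
    omega
  have hinvQ : ∀ a : SU ι E, a ∈ Q ↔ a⁻¹ ∈ Q := fun a => inv_mem_iff.symm
  -- `act k s ∉ Q`
  have hactQ : ∀ k ∈ K, T.act hD k s ∉ Q := by
    intro k hk h1
    apply hsQ
    have h2 := (hact k⁻¹ (inv_mem hk)).1 _ h1
    have h3 : T.act hD k⁻¹ (T.act hD k s) = s := mt_injective (by rw [T.mt_act, T.mt_act, T.ρ_inv])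
    rwa [h3] at h2
  have hjact : ∀ (k : Γ) (a : SU ι E), k * T.j a * k⁻¹ = T.j (T.act hD k a) := fun k a => T.conj_eq hD k a
  have hnorm : T.j s ∈ normalizer ((Q.map T.j : Subgroup Γ) : Set Γ) := by
    rw [mem_normalizer_iff]
    have key : ∀ t ∈ Y, ∀ x ∈ Q.map T.j, T.j t * x * (T.j t)⁻¹ ∈ Q.map T.j := by
      rintro t ht _ ⟨q, hq, rfl⟩
      refine ⟨t * q * t⁻¹, ?_, by rw [map_mul, map_mul, map_inv]⟩
      rw [SetLike.mem_coe, hmul _ (mul_mem ht (hQY hq)) _ (inv_mem ht), hmul _ ht _ (hQY hq), ← hinvQ]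
      simp [show q ∈ Q from hq]
    intro x
    refine ⟨key s hsY x, fun hx => ?_⟩
    have h1 := key s⁻¹ (inv_mem hsY) _ hx
    rw [map_inv] at h1
    have e : (T.j s)⁻¹ * (T.j s * x * (T.j s)⁻¹) * (T.j s)⁻¹⁻¹ = x := by group
    rwa [e] at h1
  have hc : ∀ k ∈ K, T.j s * k * (T.j s)⁻¹ * k⁻¹ ∈ Q.map T.j := by
    intro k hk
    refine ⟨s * (T.act hD k s)⁻¹, ?_, ?_⟩
    · rw [SetLike.mem_coe, hmul _ hsY _ (inv_mem ((hact k hk).2 s hsY)), ← hinvQ]
      simp [hsQ, hactQ k hk]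
    · rw [map_mul, map_inv, ← hjact]
      group
  have hsup := w_of_sml hS hK hnorm hc
  -- `K` normalises `Q.map j`
  have hKn : K ≤ normalizer ((Q.map T.j : Subgroup Γ) : Set Γ) := by
    have key : ∀ k ∈ K, ∀ x ∈ Q.map T.j, k * x * k⁻¹ ∈ Q.map T.j := by
      rintro k hk _ ⟨q, hq, rfl⟩
      exact ⟨T.act hD k q, (hact k hk).1 q hq, (hjact k q).symm⟩
    intro k hk
    rw [mem_normalizer_iff]
    intro x
    refine ⟨key k hk x, fun hx => ?_⟩
    have h1 := key k⁻¹ (inv_mem hk) _ hx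
    have e : k⁻¹ * (k * x * k⁻¹) * k⁻¹⁻¹ = x := by group
    rwa [e] at h1
  have h1 : T.j s ∈ (K : Set Γ) * ((Q.map T.j : Subgroup Γ) : Set Γ) := by
    rw [← Subgroup.coe_mul_of_left_le_normalizer_right _ _ hKn]
    exact hsup
  obtain ⟨k, hk, _, ⟨q, hq, rfl⟩, hkq⟩ := h1
  have hkq' : k * T.j q = T.j s := hkq
  have hk' : k = T.j (s * q⁻¹) := by
    rw [map_mul, map_inv, ← hkq']
    group
  -- `s' = s q⁻¹`
  have hsY' : s * q⁻¹ ∈ Y := mul_mem hsY (inv_mem (hQY hq))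
  have hsQ' : s * q⁻¹ ∉ Q := by
    rw [hmul _ hsY _ (inv_mem (hQY hq)), ← hinvQ]
    simp [hsQ, show q ∈ Q from hq]
  obtain ⟨s', hs'⟩ : ∃ s', s' = s * q⁻¹ := ⟨_, rfl⟩
  rw [← hs'] at hk' hsY' hsQ'
  have hsq : s' * s' ∈ Q := (hmul _ hsY' _ hsY').2 Iff.rfl
  obtain ⟨m, hm⟩ := hQp ⟨s' * s', hsq⟩
  have hm' : (s' * s') ^ p ^ m = 1 := congrArg Subtype.val hm
  have hodd : ∀ j : ℕ, Odd j → s' ^ j ∉ Q := by
    rintro j ⟨i, rfl⟩ h2
    rw [pow_succ, pow_mul, sq, hmul _ (pow_mem (mul_mem hsY' hsY') i) _ hsY'] at h2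
    exact hsQ' (h2.1 (pow_mem hsq i))
  have hpodd : Odd (p ^ m) := ((Fact.out : p.Prime).odd_of_ne_two hp2).pow
  refine ⟨k ^ p ^ m, pow_mem hk _, ?_, ?_, ?_⟩
  · rw [hk', ← map_pow]; exact ⟨_, rfl⟩
  · rw [hk', ← map_pow, T.j_mem_Z]
    intro h2
    exact hodd _ hpodd (hsc _ (pow_mem hsY' _) h2)
  · rw [hk', ← map_pow, ← map_pow, ← pow_mul, mul_comm, pow_mul, sq, hm', map_one]
    exact one_mem _

end Cfsg.Agent.H689.CA
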