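import Cfsg.Agent.H689.CA.Form

/-!
# S3852, type A block, (BOR) (helper689)

`T` a Sylow `p`-subgroup of `SU`: `C_V(T) = E x` with `x` isotropic unimodular; `Q = O_p` of the stabiliser of `x`,
`Y = Q.2` with an involution acting as `-1` on a hyperbolic plane `x, y`.
-/

set_option autoImplicit false

namespace Cfsg.Agent.H689.CA

open Matrix Cfsg.Agent.H308.CA

variable {ι : Type} [Fintype ι] [DecidableEq ι] {E : Type} [CommRing E] [StarRing E]

/-- the fixed vectors of `T` -/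
def Cv (T : Subgroup (SU ι E)) : Submodule E (ι → E) where
  carrier := {v | ∀ t ∈ T, mt t *ᵥ v = v}
  zero_mem' t _ := mulVec_zero _
  add_mem' := by
    intro a b ha hb t ht
    rw [mulVec_add, ha t ht, hb t ht]
  smul_mem' := by
    intro c a ha t ht
    rw [mulVec_smul, ha t ht]

theorem mem_Cv {T : Subgroup (SU ι E)} {v : ι → E} : v ∈ Cv T ↔ ∀ t ∈ T, mt t *ᵥ v = v := Iff.rfl

/-- the orthogonal complement of the fixed vectors -/
def Cp (T : Subgroup (SU ι E)) : Submodule E (ι → E) where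
  carrier := {m | ∀ c ∈ Cv T, br c m = 0}
  zero_mem' c _ := br_zero_right c
  add_mem' := by
    intro a b ha hb c hc
    rw [br_add_right, ha c hc, hb c hc, add_zero]
  smul_mem' := by
    intro r a ha c hc
    rw [br_smul_right, ha c hc, mul_zero]

theorem mt_inv_mulVec {u : SU ι E} {v : ι → E} (h : mt u *ᵥ v = v) : star (mt u) *ᵥ v = v := by
  conv_lhs => rw [← h]
  rw [mulVec_mulVec, star_mt_mul, one_mulVec]

theorem Cp_inv {T : Subgroup (SU ι E)} {t : SU ι E} (ht : t ∈ T) {m : ι → E} (hm : m ∈ Cp T) : mt t *ᵥ m ∈ Cp T := by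
  intro c hc
  rw [br_mulVec_right, mt_inv_mulVec (hc t ht)]
  exact hm c hc

theorem sub_mem_Cp {T : Subgroup (SU ι E)} {t : SU ι E} (ht : t ∈ T) (z : ι → E) : mt t *ᵥ z - z ∈ Cp T := by
  intro c hc
  rw [br_sub_right, br_mulVec_right, mt_inv_mulVec (hc t ht), sub_self]

/-- `p`-groups have nonzero fixed vectors -/
theorem exists_fixed [Finite E] {p : ℕ} [Fact p.Prime] [CharP E p] {T : Subgroup (SU ι E)} (hT : IsPGroup p T)
    (M : AddSubgroup (ι → E)) (hM : ∀ t ∈ T, ∀ m ∈ M, mt t *ᵥ m ∈ M) {m₀ : ι → E} (h0 : m₀ ∈ M) (h1 : m₀ ≠ 0) :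
    ∃ m ∈ M, m ≠ 0 ∧ m ∈ Cv T := by
  let act : MulAction T M :=
    { smul := fun t m => ⟨mt (t : SU ι E) *ᵥ (m : ι → E), hM t t.2 m m.2⟩
      one_smul := fun m => Subtype.ext (by
        change mt ((1 : T) : SU ι E) *ᵥ (m : ι → E) = m
        rw [Subgroup.coe_one, map_one, one_mulVec])
      mul_smul := fun s t m => Subtype.ext (by
        change mt ((s * t : T) : SU ι E) *ᵥ (m : ι → E) = mt (s : SU ι E) *ᵥ (mt (t : SU ι E) *ᵥ (m : ι → E))
        rw [Subgroup.coe_mul, map_mul, mulVec_mulVec]) }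
  have hsm : ∀ (t : T) (m : M), ((t • m : M) : ι → E) = mt (t : SU ι E) *ᵥ (m : ι → E) := fun _ _ => rfl
  have hcard : p ∣ Nat.card M := by
    have h2 : addOrderOf (⟨m₀, h0⟩ : M) = p := by
      refine addOrderOf_eq_prime ?_ ?_
      · apply Subtype.ext
        funext i
        change ((p • m₀ : ι → E)) i = 0
        rw [Pi.smul_apply, nsmul_eq_mul, CharP.cast_eq_zero, zero_mul]
      · intro h3
        exact h1 (congrArg Subtype.val h3)
    rw [← h2]
    exact addOrderOf_dvd_natCard _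
  obtain ⟨b, hb, hb0⟩ := hT.exists_fixed_point_of_prime_dvd_card_of_fixed_point M hcard (a := (0 : M)) (fun t =>
    Subtype.ext (by rw [hsm]; exact mulVec_zero _))
  refine ⟨b, b.2, fun h2 => hb0 (Subtype.ext h2.symm), fun t ht => ?_⟩
  have h2 := congrArg Subtype.val (hb ⟨t, ht⟩)
  exact h2

theorem two_unit (h : Gd E) {p : ℕ} (hp : p.Prime) (hp2 : p ≠ 2) [CharP E p] : IsUnit (2 : E) := by
  have hn := h.nontrivial
  refine h.isUnit_of_sym (by rw [star_ofNat]) fun h0 => ?_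
  have h1 : ((2 : ℕ) : E) = 0 := by exact_mod_cast h0
  rw [CharP.cast_eq_zero_iff E p] at h1
  exact hp2 ((Nat.prime_dvd_prime_iff_eq hp Nat.prime_two).1 h1)

theorem pow_p_of_cube {p : ℕ} (hp : p.Prime) (hp2 : p ≠ 2) [CharP E p] [Nontrivial E] [Nonempty ι]
    {A : Matrix ι ι E} (hA : (A - 1) ^ 3 = 0) : A ^ p = 1 := by
  have : Fact p.Prime := ⟨hp⟩
  have h1 : (A - 1) ^ p = 0 := by
    have h2 : 3 ≤ p := by
      have := hp.two_le
      omega
    rw [← Nat.sub_add_cancel h2, pow_add, hA, mul_zero]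
  have h3 : (A - 1) ^ p = A ^ p - 1 := by
    rw [sub_pow_char_of_commute p (Commute.one_right A), one_pow]
  rw [h3, sub_eq_zero] at h1
  exact h1

/-- isotropic unimodular vectors exist -/
theorem exists_iso (h : Gd E) (hι : 3 ≤ Fintype.card ι) : ∃ x y w : ι → E, br x x = 0 ∧ br y x = 1 ∧ br x w = 0 ∧
    br w w = 1 ∧ br w x = 0 := by
  obtain ⟨i, j, k, hij, hik, hjk⟩ := Fintype.two_lt_card_iff.1 (show 2 < Fintype.card ι by omega)
  have hn := h.nontrivial
  obtain ⟨b, hb⟩ := h.norm (a := -1) (by rw [star_neg, star_one]) (neg_ne_zero.2 one_ne_zero)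
  refine ⟨Pi.single i 1 + Pi.single j b, Pi.single i 1, Pi.single k 1, ?_, ?_, ?_, ?_, ?_⟩
  · rw [br_add_left, br_single, br_single]
    simp [hij, hij.symm, hb]
  · rw [br_single]
    simp [hij]
  · rw [br_add_left, br_single, br_single]
    simp [hik, hjk]
  · rw [br_single]
    simp
  · rw [br_single]
    simp [hik.symm, hjk.symm]

/-- an element of `SU` of order `p` -/
theorem exists_p (h : Gd E) {p : ℕ} (hp : p.Prime) (hp2 : p ≠ 2) [CharP E p] (hι : 3 ≤ Fintype.card ι) :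
    ∃ g : SU ι E, orderOf g = p := by
  have hn := h.nontrivial
  have : Fact p.Prime := ⟨hp⟩
  have : Nonempty ι := Fintype.card_pos_iff.1 (by omega)
  obtain ⟨x, y, w, hx, hy, hw, hww, hwx⟩ := exists_iso (ι := ι) h hι
  obtain ⟨c2, hc2⟩ := (two_unit h hp hp2).exists_left_inv
  have hcs : star c2 = c2 := by
    have h1 : star c2 * 2 = 1 := by
      have := congrArg star hc2
      rw [star_mul, star_ofNat, star_one, mul_comm] at this
      exact this
    calc star c2 = star c2 * (c2 * 2) := by rw [hc2, mul_one]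
      _ = (star c2 * 2) * c2 := by ring
      _ = c2 := by rw [h1, one_mul]
  have hc : c2 + star c2 = br w w := by rw [hcs, hww, ← hc2]; ring
  refine ⟨mkSU (sg x w c2) (sg_unitary hx hw hc) (sg_det hx hw), orderOf_eq_prime ?_ ?_⟩
  · apply mt_injective
    rw [map_pow, mt_mkSU, map_one]
    exact pow_p_of_cube hp hp2 (sg_cube hx hw)
  · intro h1
    have h2 := congrArg H308.CA.mt h1
    rw [mt_mkSU, map_one] at h2
    have h3 := congrArg (fun A : Matrix ι ι E => br y (A *ᵥ w)) h2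
    simp only [sg_mulVec, one_mulVec, br_sub_right, br_add_right, br_smul_right, hw, hww, hy] at h3
    simp at h3

/-- `T` is nontrivial -/
theorem ne_bot (h : Gd E) {p : ℕ} (hp : p.Prime) (hp2 : p ≠ 2) [CharP E p] (hι : 3 ≤ Fintype.card ι)
    {T : Subgroup (SU ι E)} (hT : ¬ p ∣ T.index) : T ≠ ⊥ := by
  rintro rfl
  obtain ⟨g, hg⟩ := exists_p (ι := ι) h hp hp2 hι
  apply hT
  rw [Subgroup.index_bot, ← hg]
  exact orderOf_dvd_natCard g

/-- **step 1** -/
theorem exists_smul_ne (h : Gd E) {p : ℕ} (hp : p.Prime) (hp2 : p ≠ 2) [CharP E p] (hι : 3 ≤ Fintype.card ι)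
    {T : Subgroup (SU ι E)} (hTp : IsPGroup p T) (hT : ¬ p ∣ T.index) {e : E} (he : e * e = e) (he0 : e ≠ 0) :
    ∃ x ∈ Cv T, x ∈ Cp T ∧ e • x ≠ 0 := by
  have hfin := h.finite
  have : Fact p.Prime := ⟨hp⟩
  by_contra hcon
  push Not at hcon
  let M : AddSubgroup (ι → E) :=
    { carrier := {m | m ∈ Cp T ∧ e • m = m}
      zero_mem' := ⟨zero_mem _, smul_zero _⟩
      add_mem' := fun {a b} ha hb => ⟨add_mem ha.1 hb.1, by rw [smul_add, ha.2, hb.2]⟩
      neg_mem' := fun {a} ha => ⟨neg_mem ha.1, by rw [smul_neg, ha.2]⟩ }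
  have hM0 : ∀ m ∈ M, m = 0 := by
    intro m hm
    by_contra hm0
    obtain ⟨m', hm', h1, h2⟩ := exists_fixed hTp M (fun t ht m hm => ⟨Cp_inv ht hm.1, by rw [← mulVec_smul, hm.2]⟩) hm hm0
    exact h1 (by rw [← hm'.2]; exact hcon m' h2 hm'.1)
  -- `e (t - 1) = 0`
  have h1 : ∀ t ∈ T, e • (mt t - 1) = 0 := by
    intro t ht
    apply Matrix.mulVec_injective
    funext z
    rw [zero_mulVec, smul_mulVec, sub_mulVec, one_mulVec]
    refine hM0 _ ⟨Submodule.smul_mem _ _ (sub_mem_Cp ht z), ?_⟩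
    rw [smul_smul, he]
  have hsum : e + star e ≠ 0 := by
    intro h0
    have h2 : star e = -e := (neg_eq_of_add_eq_zero_right h0).symm
    have h3 : star e * star e = star e := by rw [← star_mul, he]
    rw [h2, neg_mul_neg, he] at h3
    have h4 : (2 : E) * e = 0 := by
      have h5 : e + e = 0 := by
        nth_rewrite 1 [h3]
        exact neg_add_cancel e
      rw [two_mul, h5]
    exact he0 ((two_unit h hp hp2).mul_right_eq_zero.1 h4)
  have hu := h.isUnit_of_sym (a := e + star e) (by rw [star_add, star_star, add_comm]) hsum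
  refine ne_bot h hp hp2 hι hT ((Subgroup.eq_bot_iff_forall T).2 fun t ht => mt_injective ?_)
  rw [map_one, ← sub_eq_zero]
  have h2 := h1 t ht
  have h3 : star e • (1 - mt t) = 0 := by
    have h4 := congrArg star h2
    rw [star_smul, star_sub, star_one, star_zero] at h4
    have h5 := congrArg (fun A => A * mt t) h4
    simp only [smul_mul_assoc, sub_mul, star_mt_mul, one_mul, zero_mul] at h5
    exact h5
  have h4 : (e + star e) • (mt t - 1) = 0 := by
    rw [add_smul, h2, zero_add, ← neg_sub, smul_neg, h3, neg_zero]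
  obtain ⟨c, hc⟩ := hu.exists_left_inv
  calc mt t - 1 = (c * (e + star e)) • (mt t - 1) := by rw [hc, one_smul]
    _ = 0 := by rw [← smul_smul, h4, smul_zero]

/-- **step 2**: a unimodular isotropic fixed vector -/
theorem exists_x (h : Gd E) {X : Submodule E (ι → E)} (hX : ∀ e : E, e * e = e → e ≠ 0 → ∃ x ∈ X, e • x ≠ 0) :
    ∃ x ∈ X, ∃ y, br y x = 1 := by
  cases h with
  | uni F i s _ hs =>
    obtain ⟨x, hx, h1⟩ := hX 1 (one_mul _) one_ne_zero
    rw [one_smul] at h1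
    obtain ⟨i, hi⟩ := Function.ne_iff.1 h1
    refine ⟨x, hx, Pi.single i (star (x i)⁻¹), ?_⟩
    rw [br_single, star_star, inv_mul_cancel₀ hi]
  | lin F i _ =>
    obtain ⟨e₁, he₁⟩ : ∃ e : Ex F, e = ((1, 0) : F × F) := ⟨_, rfl⟩
    obtain ⟨e₂, he₂⟩ : ∃ e : Ex F, e = ((0, 1) : F × F) := ⟨_, rfl⟩
    obtain ⟨x₁, hx₁, h1⟩ := hX e₁ (by
      rw [he₁]
      change ((1 * 1, 0 * 0) : F × F) = (1, 0)
      rw [mul_one, mul_zero]) (fun h0 => one_ne_zero (congrArg Prod.fst (he₁.symm.trans h0)))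
    obtain ⟨x₂, hx₂, h2⟩ := hX e₂ (by
      rw [he₂]
      change ((0 * 0, 1 * 1) : F × F) = (0, 1)
      rw [mul_one, mul_zero]) (fun h0 => one_ne_zero (congrArg Prod.snd (he₂.symm.trans h0)))
    obtain ⟨i, hi⟩ := Function.ne_iff.1 h1
    obtain ⟨j, hj⟩ := Function.ne_iff.1 h2
    have hi' : (x₁ i).1 ≠ 0 := by
      intro h0
      apply hi
      rw [he₁]
      refine Prod.ext ?_ ?_
      · change (1 : F) * (x₁ i).1 = 0
        rw [h0, mul_zero]
      · change (0 : F) * (x₁ i).2 = 0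
        rw [zero_mul]
    have hj' : (x₂ j).2 ≠ 0 := by
      intro h0
      apply hj
      rw [he₂]
      refine Prod.ext ?_ ?_
      · change (0 : F) * (x₂ j).1 = 0
        rw [zero_mul]
      · change (1 : F) * (x₂ j).2 = 0
        rw [h0, mul_zero]
    obtain ⟨f₁, hf₁⟩ : ∃ e : Ex F, e = ((0, (x₁ i).1⁻¹) : F × F) := ⟨_, rfl⟩
    obtain ⟨f₂, hf₂⟩ : ∃ e : Ex F, e = (((x₂ j).2⁻¹, 0) : F × F) := ⟨_, rfl⟩
    refine ⟨e₁ • x₁ + e₂ • x₂, Submodule.add_mem _ (Submodule.smul_mem _ _ hx₁) (Submodule.smul_mem _ _ hx₂),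
      Pi.single i f₁ + Pi.single j f₂, ?_⟩
    rw [br_add_left, br_single, br_single, he₁, he₂, hf₁, hf₂]
    refine Prod.ext ?_ ?_
    · change (x₁ i).1⁻¹ * (1 * (x₁ i).1 + 0 * (x₂ i).1) + 0 * _ = (1 : F)
      rw [zero_mul, zero_mul, add_zero, add_zero, one_mul, inv_mul_cancel₀ hi']
    · change 0 * _ + (x₂ j).2⁻¹ * (0 * (x₁ j).2 + 1 * (x₂ j).2) = (1 : F)
      rw [zero_mul, zero_mul, zero_add, zero_add, one_mul, inv_mul_cancel₀ hj']

end Cfsg.Agent.H689.CA
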