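import Cfsg.Agent.H308.CA.Stmts

/-!
# S3852, type A block, (BOR): the hermitian form, Siegel transformations (helper689)

* `br x y = star x ⬝ᵥ y` on `ι → E`;
* `sg x w c` : `z ↦ z + <x, z> w - (<w, z> + c <x, z>) x`, unitary if `<x, x> = <x, w> = 0`, `c + c* = <w, w>`; `det = 1`;
* `hh x y` : `-1` on the hyperbolic plane `x, y`, and `1` on its orthogonal complement.
-/

set_option autoImplicit false

namespace Cfsg.Agent.H689.CA

open Matrix Cfsg.Agent.H308.CA

variable {ι : Type} [Fintype ι] {E : Type} [CommRing E] [StarRing E]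

/-- the hermitian form -/
def br (x y : ι → E) : E := star x ⬝ᵥ y

theorem br_add_right (x y z : ι → E) : br x (y + z) = br x y + br x z := dotProduct_add _ _ _

theorem br_sub_right (x y z : ι → E) : br x (y - z) = br x y - br x z := dotProduct_sub _ _ _

theorem br_smul_right (c : E) (x y : ι → E) : br x (c • y) = c * br x y := by
  unfold br
  rw [dotProduct_smul, smul_eq_mul]

theorem br_zero_right (x : ι → E) : br x 0 = 0 := dotProduct_zero _

theorem star_br (x y : ι → E) : star (br x y) = br y x := (star_dotProduct y x).symm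

theorem br_add_left (x y z : ι → E) : br (x + y) z = br x z + br y z := by
  rw [← star_br, br_add_right, star_add, star_br, star_br]

theorem br_sub_left (x y z : ι → E) : br (x - y) z = br x z - br y z := by
  rw [← star_br, br_sub_right, star_sub, star_br, star_br]

theorem br_smul_left (c : E) (x y : ι → E) : br (c • x) y = star c * br x y := by
  rw [← star_br, br_smul_right, star_mul, star_br, mul_comm]

theorem br_single [DecidableEq ι] (i : ι) (c : E) (y : ι → E) : br (Pi.single i c) y = star c * y i := by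
  unfold br
  rw [show star (Pi.single i c : ι → E) = Pi.single i (star c) from ?_, single_dotProduct]
  ext j
  by_cases h : j = i
  · subst h; simp
  · simp [Pi.single_apply, h]

theorem eq_zero_of_br [DecidableEq ι] {v : ι → E} (h : ∀ z, br z v = 0) : v = 0 := by
  funext i
  have h1 := h (Pi.single i 1)
  rw [br_single, star_one, one_mul] at h1
  exact h1

theorem br_mulVec_right (A : Matrix ι ι E) (x y : ι → E) : br x (A *ᵥ y) = br (star A *ᵥ x) y := by
  unfold br
  rw [star_mulVec, ← star_eq_conjTranspose, star_star, dotProduct_mulVec]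

theorem br_mulVec [DecidableEq ι] {A : Matrix ι ι E} (hA : star A * A = 1) (x y : ι → E) :
    br (A *ᵥ x) (A *ᵥ y) = br x y := by
  rw [br_mulVec_right, mulVec_mulVec, hA, one_mulVec]

theorem unitary_of_br [DecidableEq ι] {A : Matrix ι ι E} (h : ∀ x y, br (A *ᵥ x) (A *ᵥ y) = br x y) :
    star A * A = 1 := by
  apply Matrix.mulVec_injective
  funext y
  rw [one_mulVec, ← sub_eq_zero]
  refine eq_zero_of_br fun z => ?_
  rw [br_sub_right, sub_eq_zero, ← h z y, ← mulVec_mulVec]
  rw [br_mulVec_right, star_star]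

/-- the determinant of a matrix `1 + a bᵗ + a' b'ᵗ` -/
theorem det_two [DecidableEq ι] (a b a' b' : ι → E) :
    (1 + vecMulVec a b + vecMulVec a' b' : Matrix ι ι E).det =
      (1 + b ⬝ᵥ a) * (1 + b' ⬝ᵥ a') - (b ⬝ᵥ a') * (b' ⬝ᵥ a) := by
  have h1 : (1 + vecMulVec a b + vecMulVec a' b' : Matrix ι ι E) =
      1 + (Matrix.of fun (i : ι) (k : Fin 2) => ![a i, a' i] k) * (Matrix.of fun (k : Fin 2) (i : ι) => ![b i, b' i] k) := by
    ext i j
    simp [Matrix.mul_apply, Fin.sum_univ_two, vecMulVec_apply, add_assoc]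
  rw [h1, det_one_add_mul_comm, det_fin_two]
  simp [Matrix.mul_apply, dotProduct]

/-- Siegel transformations -/
def sg [DecidableEq ι] (x w : ι → E) (c : E) : Matrix ι ι E :=
  1 + vecMulVec w (star x) + vecMulVec x (-star w - c • star x)

theorem sg_mulVec [DecidableEq ι] (x w : ι → E) (c : E) (z : ι → E) :
    sg x w c *ᵥ z = z + br x z • w - (br w z + c * br x z) • x := by
  unfold sg
  rw [add_mulVec, add_mulVec, one_mulVec, vecMulVec_mulVec, vecMulVec_mulVec]
  have h1 : (-star w - c • star x) ⬝ᵥ z = -(br w z + c * br x z) := by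
    rw [sub_dotProduct, neg_dotProduct, smul_dotProduct, smul_eq_mul]
    unfold br
    ring
  rw [h1]
  ext i
  simp [br]
  ring

theorem sg_unitary [DecidableEq ι] {x w : ι → E} {c : E} (hx : br x x = 0) (hw : br x w = 0) (hc : c + star c = br w w) :
    star (sg x w c) * sg x w c = 1 := by
  refine unitary_of_br fun z z' => ?_
  have hw' : br w x = 0 := by rw [← star_br, hw, star_zero]
  rw [sg_mulVec, sg_mulVec]
  simp only [br_add_left, br_sub_left, br_smul_left, br_add_right, br_sub_right, br_smul_right, hx, hw, hw', star_add,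
    star_mul, star_br, ← hc]
  ring

theorem sg_det [DecidableEq ι] {x w : ι → E} {c : E} (hx : br x x = 0) (hw : br x w = 0) : (sg x w c).det = 1 := by
  unfold sg
  rw [det_two]
  have hw' : star w ⬝ᵥ x = 0 := by
    change br w x = 0
    rw [← star_br, hw, star_zero]
  have hx' : star x ⬝ᵥ x = 0 := hx
  have hw'' : star x ⬝ᵥ w = 0 := hw
  rw [hw'', hx', sub_dotProduct, neg_dotProduct, smul_dotProduct, hw', hx']
  simp

theorem sg_cube [DecidableEq ι] {x w : ι → E} {c : E} (hx : br x x = 0) (hw : br x w = 0) : (sg x w c - 1) ^ 3 = 0 := by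
  have hw' : br w x = 0 := by rw [← star_br, hw, star_zero]
  have h1 : ∀ z, (sg x w c - 1) *ᵥ z = br x z • w - (br w z + c * br x z) • x := by
    intro z
    rw [sub_mulVec, one_mulVec, sg_mulVec]
    abel
  apply Matrix.mulVec_injective
  funext z
  rw [zero_mulVec, pow_succ, pow_succ, pow_one, ← mulVec_mulVec, ← mulVec_mulVec, h1, h1, h1]
  simp only [br_sub_right, br_smul_right, hx, hw, hw']
  simp

/-- `-1` on the hyperbolic plane `x, y` -/
def hh [DecidableEq ι] (x y : ι → E) : Matrix ι ι E :=
  1 + vecMulVec x (-(2 : E) • star y) + vecMulVec y (-(2 : E) • star x)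

theorem hh_mulVec [DecidableEq ι] (x y z : ι → E) :
    hh x y *ᵥ z = z - (2 * br y z) • x - (2 * br x z) • y := by
  unfold hh
  rw [add_mulVec, add_mulVec, one_mulVec, vecMulVec_mulVec, vecMulVec_mulVec, smul_dotProduct, smul_dotProduct]
  ext i
  simp [br]
  ring

theorem hh_unitary [DecidableEq ι] {x y : ι → E} (hx : br x x = 0) (hy : br y y = 0) (hxy : br y x = 1) :
    star (hh x y) * hh x y = 1 := by
  refine unitary_of_br fun z z' => ?_
  have hyx : br x y = 1 := by rw [← star_br, hxy, star_one]
  rw [hh_mulVec, hh_mulVec]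
  simp only [br_sub_left, br_smul_left, br_sub_right, br_smul_right, hx, hy, hxy, hyx, star_mul, star_br, star_ofNat]
  ring

theorem hh_det [DecidableEq ι] {x y : ι → E} (hx : br x x = 0) (hy : br y y = 0) (hxy : br y x = 1) :
    (hh x y).det = 1 := by
  unfold hh
  rw [det_two]
  have h1 : star y ⬝ᵥ x = 1 := hxy
  have h2 : star x ⬝ᵥ y = 1 := by
    change br x y = 1
    rw [← star_br, hxy, star_one]
  have h3 : star x ⬝ᵥ x = 0 := hx
  have h4 : star y ⬝ᵥ y = 0 := hy
  rw [smul_dotProduct, smul_dotProduct, smul_dotProduct, smul_dotProduct, h1, h2, h3, h4]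
  simp only [smul_eq_mul]
  ring

end Cfsg.Agent.H689.CA
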